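import Mathlib
import Cfsg.Agent.Lib.Helper24.ES3.Defs
import Cfsg.Agent.Lib.Helper2.ES3.A3
import Cfsg.Agent.Lib.Helper53.ES3.C2

set_option autoImplicit false

namespace Cfsg.Agent.Lib.Helper24.ES3

variable {G : Type*} [Group G]

theorem C3_pow_congr {p : ℕ} {x : G} (hx : x ^ p = 1) {n m : ℕ} (h : n ≡ m [MOD p]) :
    x ^ n = x ^ m := by
  rw [← Nat.mod_add_div n p, ← Nat.mod_add_div m p, pow_add, pow_add, pow_mul, pow_mul, hx,
    one_pow, one_pow, h]

theorem C3_inv_apply {k z w : G} {m : ℕ} (h1 : MulAut.conj k z = z)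
    (h2 : MulAut.conj k w = w * z ^ m) :
    MulAut.conj k⁻¹ z = z ∧ MulAut.conj k⁻¹ w = w * (z ^ m)⁻¹ := by
  have e1 : (MulAut.conj k)⁻¹ z = z := by
    have := MulAut.inv_apply_self _ (MulAut.conj k) z
    rwa [h1] at this
  refine ⟨by rw [map_inv]; exact e1, ?_⟩
  have := MulAut.inv_apply_self _ (MulAut.conj k) w
  rw [h2, map_mul, map_pow, e1] at this
  rw [map_inv]
  exact eq_mul_inv_of_mul_eq this

/-- the subgroup `T`. -/
def C3_T (p : ℕ) (z w : G) (hzp : z ^ p = 1) (hp : 0 < p) : Subgroup G where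
  carrier := {k | MulAut.conj k z = z ∧ ∃ m : ℕ, MulAut.conj k w = w * z ^ m}
  one_mem' := ⟨by simp, 0, by simp⟩
  mul_mem' := by
    rintro k k' ⟨h1, m, h2⟩ ⟨h1', m', h2'⟩
    refine ⟨by rw [map_mul, MulAut.mul_apply, h1', h1], m + m', ?_⟩
    rw [map_mul, MulAut.mul_apply, h2', map_mul, map_pow, h1, h2, mul_assoc, ← pow_add]
  inv_mem' := by
    rintro k ⟨h1, m, h2⟩
    obtain ⟨e1, e2⟩ := C3_inv_apply h1 h2
    refine ⟨e1, (p - 1) * m, ?_⟩
    rw [e2]
    congr 1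
    apply inv_eq_of_mul_eq_one_right
    rw [← pow_add]
    have : m + (p - 1) * m = p * m := by
      obtain ⟨q, rfl⟩ : ∃ q, p = q + 1 := ⟨p - 1, by omega⟩
      simp only [Nat.add_sub_cancel]
      ring
    rw [this, pow_mul, hzp, one_pow]

/-- C3 -/
theorem sylow_step [Finite G] {p : ℕ} [Fact p.Prime] (P : Sylow p G) {z : G}
    (h : Dat p (P : Subgroup G) z) {w : G} (hw : w ∈ (P : Subgroup G)) (hwz : ∀ k : ℕ, w ≠ z ^ k)
    {a a' : ℕ} (haa : a * a' ≡ 1 [MOD p]) {d : G}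
    (hdz : d * z * d⁻¹ = z ^ a) (hdw : d * w * d⁻¹ = w ^ a') :
    ∃ c : G, c * z = z * c ∧ c * w = w * c ∧
      c⁻¹ * d ∈ Subgroup.normalizer ((P : Subgroup G) : Set G) := by
  have hp := (Fact.out : p.Prime)
  obtain ⟨y, hyP, hy⟩ := exists_conj h hw hwz
  have hzp : z ^ p = 1 := h.exp z h.zP
  have hwp : w ^ p = 1 := h.exp w hw
  have hcwz : Commute w z := h.zc w hw
  have hzaa : z ^ (a * a') = z := by
    have := C3_pow_congr hzp haa
    simpa using this
  have hwaa : w ^ (a' * a) = w := by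
    have := C3_pow_congr hwp haa
    rw [mul_comm]
    simpa using this
  have hPz : ∀ u ∈ (P : Subgroup G), MulAut.conj u z = z := by
    intro u hu
    rw [MulAut.conj_apply, h.zc u hu, mul_inv_cancel_right]
  have hPw : ∀ u ∈ (P : Subgroup G), ∃ m : ℕ, MulAut.conj u w = w * z ^ m := by
    intro u hu
    obtain ⟨k, hk⟩ := h.comm u hu w hw
    refine ⟨k, ?_⟩
    rw [MulAut.conj_apply, eq_mul_of_mul_inv_eq hk]
    exact ((hcwz.pow_right k).eq).symm
  have hPT : (P : Subgroup G) ≤ C3_T p z w hzp hp.pos := fun u hu => ⟨hPz u hu, hPw u hu⟩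
  have hdz' : MulAut.conj d z = z ^ a := hdz
  have hdw' : MulAut.conj d w = w ^ a' := hdw
  have e1 : MulAut.conj d (z ^ a') = z := by rw [map_pow, hdz', ← pow_mul, hzaa]
  have e2 : MulAut.conj d (w ^ a) = w := by rw [map_pow, hdw', ← pow_mul, hwaa]
  have e1' : (MulAut.conj d)⁻¹ z = z ^ a' := by
    have := MulAut.inv_apply_self _ (MulAut.conj d) (z ^ a')
    rwa [e1] at this
  have e2' : (MulAut.conj d)⁻¹ w = w ^ a := by
    have := MulAut.inv_apply_self _ (MulAut.conj d) (w ^ a)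
    rwa [e2] at this
  have hd : ∀ u ∈ (P : Subgroup G), d * u * d⁻¹ ∈ C3_T p z w hzp hp.pos := by
    intro u hu
    obtain ⟨m, hm⟩ := hPw u hu
    refine ⟨?_, a * (m * a), ?_⟩
    · rw [map_mul, map_mul, map_inv, MulAut.mul_apply, MulAut.mul_apply, e1', map_pow, hPz u hu, e1]
    · rw [map_mul, map_mul, map_inv, MulAut.mul_apply, MulAut.mul_apply, e2', map_pow, hm,
        (hcwz.pow_right m).mul_pow, map_mul, e2, ← pow_mul, map_pow, hdz', ← pow_mul]
  obtain ⟨k, ⟨hk1, m, hk2⟩, hkN⟩ := sylow_conj_in P (C3_T p z w hzp hp.pos) hPT d hd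
  have hyz : MulAut.conj y z = z := hPz y hyP
  have hyw : MulAut.conj y w = w * z := hy
  have hym : ∀ i : ℕ, MulAut.conj (y ^ i) z = z ∧ MulAut.conj (y ^ i) w = w * z ^ i := by
    intro i
    induction i with
    | zero => simp
    | succ i ih =>
      refine ⟨?_, ?_⟩
      · rw [pow_succ, map_mul, MulAut.mul_apply, hyz, ih.1]
      · rw [pow_succ, map_mul, MulAut.mul_apply, hyw, map_mul, ih.1, ih.2, mul_assoc, ← pow_succ]
  obtain ⟨f1, f2⟩ := C3_inv_apply (hym m).1 (hym m).2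
  refine ⟨k * (y ^ m)⁻¹, ?_, ?_, ?_⟩
  · have : MulAut.conj (k * (y ^ m)⁻¹) z = z := by rw [map_mul, MulAut.mul_apply, f1, hk1]
    rw [MulAut.conj_apply] at this
    exact mul_inv_eq_iff_eq_mul.1 this
  · have : MulAut.conj (k * (y ^ m)⁻¹) w = w := by
      rw [map_mul, MulAut.mul_apply, f2, map_mul, map_inv, map_pow, hk1, hk2, mul_inv_cancel_right]
    rw [MulAut.conj_apply] at this
    exact mul_inv_eq_iff_eq_mul.1 this
  · have : (k * (y ^ m)⁻¹)⁻¹ * d = y ^ m * (k⁻¹ * d) := by group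
    rw [this]
    exact Subgroup.mul_mem _ (Subgroup.le_normalizer ((P : Subgroup G).pow_mem hyP m)) hkN

end Cfsg.Agent.Lib.Helper24.ES3
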