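import Mathlib
import Cfsg.Agent.Lib.Helper24.ES3.Defs
import Cfsg.Agent.Lib.Helper2.ES3.Base
import Cfsg.Agent.Lib.Helper2.ES3.A1
import Cfsg.Agent.Lib.Helper54.ES3.A5
import Cfsg.Agent.Lib.Helper54.ES3.B2
import Cfsg.Agent.Lib.Helper54.ES3.B3
import Cfsg.Agent.Lib.Helper72.ES3.B4
import Cfsg.Agent.Lib.Helper74.ES3.B1
import Cfsg.Agent.Lib.Helper74.ES3.B5
import Cfsg.Agent.Lib.Helper4.ES3.E2
import Cfsg.Agent.Lib.Helper4.ES3.F1
import Cfsg.Agent.Lib.Helper74.ES3.B6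
import Cfsg.Agent.Lib.Helper74.ES3.F2
import Cfsg.Agent.Lib.Helper4.ES3.C4
import Cfsg.Agent.Lib.Helper26.ES3.M

set_option autoImplicit false

namespace Cfsg.Agent.Lib.Helper24.ES3

variable {G : Type*} [Group G]

theorem exists_gen_units (p : ℕ) [Fact p.Prime] : ∃ a : (ZMod p)ˣ, orderOf a = p - 1 := by
  obtain ⟨a, ha⟩ := IsCyclic.exists_generator (α := (ZMod p)ˣ)
  refine ⟨a, ?_⟩
  rw [orderOf_eq_card_of_forall_mem_zpowers ha, Nat.card_eq_fintype_card, ZMod.card_units]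

/-- G4: the main abstract statement. -/
theorem main [Finite G] {p : ℕ} [Fact p.Prime] (hp2 : p ≠ 2) (P : Sylow p G) {z : G}
    (h : Dat p (P : Subgroup G) z) {k : ℕ} (w : Fin k → G)
    (hwP : ∀ j, w j ∈ (P : Subgroup G)) (hwz : ∀ j, ∀ m : ℕ, w j ≠ z ^ m)
    (hH : ∀ j, HW p z (w j))
    (hne : ∀ i j, i ≠ j → ∀ m l : ℕ, w j ≠ w i ^ m * z ^ l) :
    (3 ≤ k → p ≤ 13) ∧ (7 ≤ k → p ≤ 7) := by
  let _ := modV h
  obtain ⟨χ, hχ⟩ := exists_chi h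
  obtain ⟨a, ha⟩ := exists_gen_units p
  have haa : ((a : ZMod p).val) * (((a⁻¹ : (ZMod p)ˣ) : ZMod p).val) ≡ 1 [MOD p] := by
    rw [← ZMod.natCast_eq_natCast_iff]
    rw [Nat.cast_mul, ZMod.natCast_zmod_val, ZMod.natCast_zmod_val, ← Units.val_mul,
      mul_inv_cancel, Units.val_one, Nat.cast_one]
  choose n hnN hnz hnw using fun j => key P h (hwP j) (hwz j) (hH j) haa
  refine Cfsg.Agent.Lib.Helper26.ES3.lemmaM hp2 (finrank_VV h) (rho p (P : Subgroup G)) χ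
    (rho_range_coprime P) (chi_of_scalar h χ hχ) a ha (fun j => ⟨n j, hnN j⟩)
    (fun j => cls (P : Subgroup G) ⟨w j, hwP j⟩) ?_ ?_ ?_ ?_
  · intro j h0
    obtain ⟨m, hm⟩ := cls_eq_zero h _ h0
    exact hwz j m hm
  · intro i j hij c hc
    obtain ⟨l, hl⟩ := cls_smul h _ _ c hc
    exact hne i j hij _ l hl
  · intro j
    rw [rho_cls' p (P : Subgroup G) ⟨n j, hnN j⟩ ⟨w j, hwP j⟩
      (⟨w j, hwP j⟩ ^ (((a⁻¹ : (ZMod p)ˣ) : ZMod p).val)) (by rw [Subgroup.coe_pow]; exact (hnw j).symm),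
      cls_pow, ← Nat.cast_smul_eq_nsmul (ZMod p), ZMod.natCast_zmod_val]
  · intro j
    have h1 := hχ ⟨n j, hnN j⟩
    simp only [] at h1
    rw [hnz j] at h1
    have h2 := (pow_eq_pow_iff_modEq).1 h1
    rw [Cfsg.Agent.Lib.Helper2.ES3.orderOf_z h, ← ZMod.natCast_eq_natCast_iff, ZMod.natCast_zmod_val,
      ZMod.natCast_zmod_val] at h2
    exact (Units.ext h2).symm

end Cfsg.Agent.Lib.Helper24.ES3
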